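import Cfsg.Agent.H464.RM.Tools

/-!
# Subgroups of extraspecial groups avoiding the centre (helper841, S3849 P11)

* `dvd_relIndex` : `E` a `p`-group with `[E, E] ≤ ⟨z⟩`, `z` central of order `p`, `p ^ 3 ∣ |E : Z(E)|`: if `z ∉ D ≤ E` then
  `p ^ 3 ∣ |E : D|`;
* `X5` : generators and relations of `5 ^ (1+4)`; `X5.spec`.
-/

set_option autoImplicit false

namespace Cfsg.Agent.H841.RM.Five

open Subgroup Cfsg

section gen

variable {G : Type*} [Group G] [Finite G]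

theorem dvd_of_lt {p : ℕ} (hp : p.Prime) {E K H : Subgroup G} (hE : IsPGroup p E) (hH : H ≤ E)
    {x : G} (hx : x ∈ H) (hxK : x ∉ K) : p ∣ K.relIndex H := by
  have hft : Fact p.Prime := ⟨hp⟩
  have hHp : IsPGroup p H := hE.to_le hH
  obtain ⟨n, hn⟩ := hHp.index (K.subgroupOf H)
  have h1 : K.relIndex H = p ^ n := hn
  rw [h1]
  refine dvd_pow_self p ?_
  rintro rfl
  rw [pow_zero, relIndex_eq_one] at h1
  exact hxK (h1 hx)

theorem dvd_relIndex {p : ℕ} (hp : p.Prime) {E : Subgroup G} (hE : IsPGroup p E) {z : G} (hz : orderOf z = p)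
    (hzE : z ∈ E) (hzc : ∀ g ∈ E, g * z = z * g) (hc : ∀ g ∈ E, ∀ h ∈ E, ∃ m : ℤ, g * h * g⁻¹ * h⁻¹ = z ^ m)
    (hW : p ^ 3 ∣ (E ⊓ centralizer (E : Set G)).relIndex E) {D : Subgroup G} (hD : D ≤ E) (hzD : z ∉ D) :
    p ^ 3 ∣ D.relIndex E := by
  have hft : Fact p.Prime := ⟨hp⟩
  obtain ⟨k, hk⟩ := hE.index (D.subgroupOf E)
  have hk : D.relIndex E = p ^ k := hk
  rw [hk]
  apply pow_dvd_pow
  by_contra hlt
  push Not at hlt
  -- `D` is commutative
  have hDc : ∀ a ∈ D, ∀ b ∈ D, a * b = b * a := by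
    intro a ha b hb
    obtain ⟨m, hm⟩ := hc a (hD ha) b (hD hb)
    by_cases h1 : z ^ m = 1
    · rw [h1, mul_inv_eq_one, mul_inv_eq_iff_eq_mul] at hm
      exact hm
    · exfalso
      apply hzD
      have h2 : z ^ m ∈ D := by
        rw [← hm]
        exact mul_mem (mul_mem (mul_mem ha hb) (inv_mem ha)) (inv_mem hb)
      have h3 : orderOf (z ^ m) = p := by
        apply orderOf_eq_prime _ h1
        rw [← zpow_natCast, ← zpow_mul, mul_comm, zpow_mul, zpow_natCast, ← hz, pow_orderOf_eq_one, one_zpow]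
      have h4 : zpowers (z ^ m) = zpowers z := eq_of_le_of_card_ge (zpowers_le.2 (zpow_mem_zpowers z m))
        (by rw [Nat.card_zpowers, Nat.card_zpowers, h3, hz])
      exact (zpowers_le.2 h2) (h4 ▸ mem_zpowers z)
  set A : Subgroup G := D ⊔ zpowers z with hA
  have hAE : A ≤ E := sup_le hD (zpowers_le.2 hzE)
  have hAc : ∀ a ∈ A, ∀ b ∈ A, a * b = b * a := by
    have h1 : D ≤ centralizer (A : Set G) := by
      intro a ha
      rw [mem_centralizer_iff]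
      intro b hb
      have h2 : A ≤ centralizer ({a} : Set G) := sup_le
        (fun d hd => mem_centralizer_singleton_iff.2 (hDc d hd a ha))
        (zpowers_le.2 (mem_centralizer_singleton_iff.2 (hzc a (hD ha)).symm))
      exact mem_centralizer_singleton_iff.1 (h2 hb)
    have h2 : A ≤ centralizer (A : Set G) := sup_le h1 (zpowers_le.2 (mem_centralizer_iff.2 fun b hb => hzc b (hAE hb)))
    intro a ha b hb
    exact (mem_centralizer_iff.1 (h2 ha) b hb).symm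
  have h1 : D.relIndex A * A.relIndex E = p ^ k := by
    rw [relIndex_mul_relIndex _ _ _ le_sup_left hAE, hk]
  have h2 : p ∣ D.relIndex A := dvd_of_lt hp hE hAE (mem_sup_right (mem_zpowers z)) hzD
  have h3 : A.relIndex E ∣ p := by
    obtain ⟨q, hq⟩ := h2
    have h4 : p * (q * A.relIndex E) = p ^ k := by rw [← h1, hq]; ring
    have h5 : p ^ k ∣ p * p := by
      rw [← pow_two]
      exact pow_dvd_pow p (by omega)
    rw [← h4] at h5
    exact (dvd_mul_left _ _).trans (Nat.dvd_of_mul_dvd_mul_left hp.pos h5)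
  have hWne : (E ⊓ centralizer (E : Set G)).relIndex E ≠ 0 := by
    show ((E ⊓ centralizer (E : Set G)).subgroupOf E).index ≠ 0
    exact index_ne_zero_of_finite
  have hWge : p ^ 3 ≤ (E ⊓ centralizer (E : Set G)).relIndex E := Nat.le_of_dvd (Nat.pos_of_ne_zero hWne) hW
  have hp1 : 1 < p := hp.one_lt
  rcases (Nat.dvd_prime hp).1 h3 with h4 | h4
  · -- `A = E`
    rw [relIndex_eq_one] at h4
    have h5 : (E ⊓ centralizer (E : Set G)).relIndex E = 1 := by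
      rw [relIndex_eq_one]
      exact le_inf le_rfl fun a ha => mem_centralizer_iff.2 fun b hb => hAc b (h4 hb) a (h4 ha)
    rw [h5] at hWge
    have := Nat.one_lt_pow (n := 3) (by norm_num) hp1
    omega
  · obtain ⟨g, hgE, hgA⟩ : ∃ g ∈ E, g ∉ A := by
      by_contra hcon
      push Not at hcon
      have : A.relIndex E = 1 := relIndex_eq_one.2 hcon
      omega
    have h5 : E ≤ A ⊔ zpowers g := by
      have h6 : A.relIndex (A ⊔ zpowers g) * (A ⊔ zpowers g).relIndex E = p := by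
        rw [relIndex_mul_relIndex _ _ _ le_sup_left (sup_le hAE (zpowers_le.2 hgE)), h4]
      have h7 : p ∣ A.relIndex (A ⊔ zpowers g) := dvd_of_lt hp hE (sup_le hAE (zpowers_le.2 hgE))
        (mem_sup_right (mem_zpowers g)) hgA
      obtain ⟨q, hq⟩ := h7
      have h8 : p * (q * (A ⊔ zpowers g).relIndex E) = p * 1 := by rw [mul_one, ← mul_assoc, ← hq, h6]
      exact relIndex_eq_one.1 (Nat.eq_one_of_mul_eq_one_left (Nat.eq_of_mul_eq_mul_left hp.pos h8))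
    -- the homomorphism `a ↦ [g, a]`
    have hcen : ∀ a ∈ E, ∀ b ∈ E, ∀ c ∈ E, (g * a * g⁻¹ * a⁻¹) * c = c * (g * a * g⁻¹ * a⁻¹) := by
      intro a ha b hb c hcE
      obtain ⟨m, hm⟩ := hc g hgE a ha
      rw [hm]
      have : Commute c z := hzc c hcE
      exact (this.zpow_right m).eq.symm
    let φ : A →* G := MonoidHom.mk' (fun a => g * (a : G) * g⁻¹ * (a : G)⁻¹) (by
      intro a b
      show g * ((a : G) * (b : G)) * g⁻¹ * ((a : G) * (b : G))⁻¹ = _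
      have h6 : Commute (g * (b : G) * g⁻¹ * (b : G)⁻¹) (a : G) := hcen b (hAE b.2) 1 (one_mem _) a (hAE a.2)
      calc g * ((a : G) * (b : G)) * g⁻¹ * ((a : G) * (b : G))⁻¹
          = g * a * g⁻¹ * ((g * b * g⁻¹ * (b : G)⁻¹) * (a : G)⁻¹) := by group
        _ = g * a * g⁻¹ * ((a : G)⁻¹ * (g * b * g⁻¹ * (b : G)⁻¹)) := by
            rw [h6.inv_right.eq]
        _ = _ := by group)
    have h6 : φ.ker.index ∣ p := by
      rw [Subgroup.index_ker]
      have h7 : φ.range ≤ zpowers z := by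
        rintro _ ⟨a, rfl⟩
        obtain ⟨m, hm⟩ := hc g hgE a (hAE a.2)
        show g * (a : G) * g⁻¹ * (a : G)⁻¹ ∈ _
        rw [hm]
        exact zpow_mem_zpowers z m
      have h8 := card_dvd_of_le h7
      rwa [Nat.card_zpowers, hz] at h8
    have h7 : (φ.ker.map A.subtype) ≤ E ⊓ centralizer (E : Set G) := by
      rintro _ ⟨a, ha, rfl⟩
      have h8 : g * (a : G) * g⁻¹ * (a : G)⁻¹ = 1 := ha
      have h9 : (a : G) * g = g * a := by
        rw [mul_inv_eq_one, mul_inv_eq_iff_eq_mul] at h8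
        exact h8.symm
      refine ⟨hAE a.2, mem_centralizer_iff.2 fun b hb => ?_⟩
      have h10 : A ⊔ zpowers g ≤ centralizer ({(a : G)} : Set G) := sup_le
        (fun d hd => mem_centralizer_singleton_iff.2 (hAc d hd a a.2))
        (zpowers_le.2 (mem_centralizer_singleton_iff.2 h9.symm))
      exact mem_centralizer_singleton_iff.1 (h10 (h5 hb))
    have h8 : (φ.ker.map A.subtype).relIndex E ∣ p * p := by
      have h9 : (φ.ker.map A.subtype) ≤ A := map_subtype_le _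
      rw [← relIndex_mul_relIndex _ _ _ h9 hAE, h4]
      refine mul_dvd_mul ?_ dvd_rfl
      have h10 : (φ.ker.map A.subtype).relIndex A = φ.ker.index := by
        show ((φ.ker.map A.subtype).subgroupOf A).index = _
        congr 1
        exact comap_map_eq_self_of_injective A.subtype_injective _
      rwa [h10]
    have h9 : (E ⊓ centralizer (E : Set G)).relIndex E ≤ p * p := by
      refine (Nat.le_of_dvd (by positivity) ((relIndex_dvd_of_le_left E h7).trans h8))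
    have h10 : p ^ 3 = p * p * p := by ring
    have h11 : p * p * 1 < p * p * p := Nat.mul_lt_mul_of_pos_left hp1 (by positivity)
    omega

end gen

/-! ### `5 ^ (1+4)` -/

/-- generators and relations of `5 ^ (1+4)` (a part of `H536.T5.Five.Dat`) -/
structure X5 {G : Type*} [Group G] (z n1 n2 n3 n4 : G) : Prop where
  z5 : z ^ 5 = 1
  z1 : z ≠ 1
  p1 : n1 ^ 5 = 1
  p2 : n2 ^ 5 = 1
  p3 : n3 ^ 5 = 1
  p4 : n4 ^ 5 = 1
  zn1 : z * n1 = n1 * z
  zn2 : z * n2 = n2 * z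
  zn3 : z * n3 = n3 * z
  zn4 : z * n4 = n4 * z
  n12 : n1 * n2 = n2 * n1
  n13 : n1 * n3 = n3 * n1
  n14 : n1 * n4 = z ^ 2 * n4 * n1
  n23 : n2 * n3 = z ^ 3 * n3 * n2
  n24 : n2 * n4 = z ^ 2 * n4 * n2
  n34 : n3 * n4 = n4 * n3

namespace X5

variable {G : Type*} [Group G]

theorem map {H : Type*} [Group H] {z n1 n2 n3 n4 : G} (X : X5 z n1 n2 n3 n4) (f : G →* H) (hf : Function.Injective f) :
    X5 (f z) (f n1) (f n2) (f n3) (f n4) where
  z5 := by rw [← map_pow, X.z5, map_one]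
  z1 := fun h => X.z1 (hf (by rw [h, map_one]))
  p1 := by rw [← map_pow, X.p1, map_one]
  p2 := by rw [← map_pow, X.p2, map_one]
  p3 := by rw [← map_pow, X.p3, map_one]
  p4 := by rw [← map_pow, X.p4, map_one]
  zn1 := by rw [← map_mul, X.zn1, map_mul]
  zn2 := by rw [← map_mul, X.zn2, map_mul]
  zn3 := by rw [← map_mul, X.zn3, map_mul]
  zn4 := by rw [← map_mul, X.zn4, map_mul]
  n12 := by rw [← map_mul, X.n12, map_mul]
  n13 := by rw [← map_mul, X.n13, map_mul]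
  n14 := by rw [← map_mul, X.n14, map_mul, map_mul, map_pow]
  n23 := by rw [← map_mul, X.n23, map_mul, map_mul, map_pow]
  n24 := by rw [← map_mul, X.n24, map_mul, map_mul, map_pow]
  n34 := by rw [← map_mul, X.n34, map_mul]

variable {z n1 n2 n3 n4 : G}

/-- the elements commuting with `z` which `x` centralizes modulo `z` -/
def Dn (z x : G) : Subgroup G where
  carrier := {g | g * z = z * g ∧ ∃ m : ℤ, x * g * x⁻¹ = g * z ^ m}
  one_mem' := ⟨by simp, 0, by simp⟩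
  mul_mem' := by
    rintro g h ⟨hg, m, hm⟩ ⟨hh, m', hm'⟩
    refine ⟨((show Commute g z from hg).mul_left (show Commute h z from hh)).eq, m + m', ?_⟩
    calc x * (g * h) * x⁻¹ = (x * g * x⁻¹) * (x * h * x⁻¹) := by group
      _ = g * (z ^ m * h) * z ^ m' := by rw [hm, hm']; group
      _ = g * (h * z ^ m) * z ^ m' := by rw [((show Commute h z from hh).zpow_right m).eq]
      _ = g * h * z ^ (m + m') := by rw [zpow_add]; group
  inv_mem' := by
    rintro g ⟨hg, m, hm⟩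
    refine ⟨(show Commute g z from hg).inv_left.eq, -m, ?_⟩
    calc x * g⁻¹ * x⁻¹ = (x * g * x⁻¹)⁻¹ := by group
      _ = z ^ (-m) * g⁻¹ := by rw [hm, mul_inv_rev, zpow_neg]
      _ = g⁻¹ * z ^ (-m) := (((show Commute g z from hg).inv_left.zpow_right (-m)).eq).symm

theorem mem_Dn {x y : G} {k : ℤ} (hx : z * x = x * z) (hy : z * y = y * z) (h : x * y = z ^ k * y * x) :
    y ∈ Dn z x ∧ x ∈ Dn z y := by
  have c1 : Commute z x := hx
  have c2 : Commute z y := hy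
  constructor
  · refine ⟨hy.symm, k, ?_⟩
    rw [h, mul_inv_cancel_right, (c2.zpow_left k).eq]
  · refine ⟨hx.symm, -k, ?_⟩
    have h1 : y * x = z ^ (-k) * (x * y) := by rw [h, ← mul_assoc, ← mul_assoc, ← zpow_add, neg_add_cancel, zpow_zero, one_mul]
    rw [h1, mul_assoc, mul_inv_cancel_right, (c1.zpow_left (-k)).eq]

theorem swap_Dn {g x : G} (hx : z * x = x * z) (h : g ∈ Dn z x) : x ∈ Dn z g := by
  obtain ⟨h1, m, hm⟩ := h
  have c1 : Commute g z := h1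
  refine (mem_Dn (k := m) hx h1.symm ?_).2
  rw [mul_inv_eq_iff_eq_mul] at hm
  rw [hm, (c1.zpow_right m).eq]

/-- the group -/
def E (z n1 n2 n3 n4 : G) : Subgroup G := zpowers z ⊔ zpowers n1 ⊔ zpowers n2 ⊔ zpowers n3 ⊔ zpowers n4

theorem E_le {K : Subgroup G} (hz : z ∈ K) (h1 : n1 ∈ K) (h2 : n2 ∈ K) (h3 : n3 ∈ K) (h4 : n4 ∈ K) :
    E z n1 n2 n3 n4 ≤ K :=
  sup_le (sup_le (sup_le (sup_le (zpowers_le.2 hz) (zpowers_le.2 h1)) (zpowers_le.2 h2)) (zpowers_le.2 h3)) (zpowers_le.2 h4)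

theorem m0 : z ∈ E z n1 n2 n3 n4 := mem_sup_left (mem_sup_left (mem_sup_left (mem_sup_left (mem_zpowers z))))
theorem m1 : n1 ∈ E z n1 n2 n3 n4 := mem_sup_left (mem_sup_left (mem_sup_left (mem_sup_right (mem_zpowers n1))))
theorem m2 : n2 ∈ E z n1 n2 n3 n4 := mem_sup_left (mem_sup_left (mem_sup_right (mem_zpowers n2)))
theorem m3 : n3 ∈ E z n1 n2 n3 n4 := mem_sup_left (mem_sup_right (mem_zpowers n3))
theorem m4 : n4 ∈ E z n1 n2 n3 n4 := mem_sup_right (mem_zpowers n4)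

section

variable (X : X5 z n1 n2 n3 n4)
include X

theorem comm_z : ∀ g ∈ E z n1 n2 n3 n4, g * z = z * g := by
  intro g hg
  have h : E z n1 n2 n3 n4 ≤ centralizer ({z} : Set G) := E_le (mem_centralizer_singleton_iff.2 rfl)
    (mem_centralizer_singleton_iff.2 X.zn1.symm) (mem_centralizer_singleton_iff.2 X.zn2.symm)
    (mem_centralizer_singleton_iff.2 X.zn3.symm) (mem_centralizer_singleton_iff.2 X.zn4.symm)
  exact mem_centralizer_singleton_iff.1 (h hg)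

theorem d14 : n4 ∈ Dn z n1 ∧ n1 ∈ Dn z n4 := mem_Dn (k := 2) X.zn1 X.zn4 (by rw [X.n14]; norm_cast)
theorem d23 : n3 ∈ Dn z n2 ∧ n2 ∈ Dn z n3 := mem_Dn (k := 3) X.zn2 X.zn3 (by rw [X.n23]; norm_cast)
theorem d24 : n4 ∈ Dn z n2 ∧ n2 ∈ Dn z n4 := mem_Dn (k := 2) X.zn2 X.zn4 (by rw [X.n24]; norm_cast)
theorem d12 : n2 ∈ Dn z n1 ∧ n1 ∈ Dn z n2 := mem_Dn (k := 0) X.zn1 X.zn2 (by rw [X.n12, zpow_zero, one_mul])
theorem d13 : n3 ∈ Dn z n1 ∧ n1 ∈ Dn z n3 := mem_Dn (k := 0) X.zn1 X.zn3 (by rw [X.n13, zpow_zero, one_mul])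
theorem d34 : n4 ∈ Dn z n3 ∧ n3 ∈ Dn z n4 := mem_Dn (k := 0) X.zn3 X.zn4 (by rw [X.n34, zpow_zero, one_mul])

omit X in
theorem dself {x : G} (hx : z * x = x * z) : x ∈ Dn z x := (mem_Dn (k := 0) hx hx (by rw [zpow_zero, one_mul])).1

omit X in
theorem dz {x : G} (hx : z * x = x * z) : z ∈ Dn z x := (mem_Dn (k := 0) hx rfl (by rw [zpow_zero, one_mul, hx])).1

theorem le_Dn {h : G} (hh : h ∈ E z n1 n2 n3 n4) : E z n1 n2 n3 n4 ≤ Dn z h := by
  have e1 : E z n1 n2 n3 n4 ≤ Dn z n1 := E_le (dz X.zn1) (dself X.zn1) X.d12.1 X.d13.1 X.d14.1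
  have e2 : E z n1 n2 n3 n4 ≤ Dn z n2 := E_le (dz X.zn2) X.d12.2 (dself X.zn2) X.d23.1 X.d24.1
  have e3 : E z n1 n2 n3 n4 ≤ Dn z n3 := E_le (dz X.zn3) X.d13.2 X.d23.2 (dself X.zn3) X.d34.1
  have e4 : E z n1 n2 n3 n4 ≤ Dn z n4 := E_le (dz X.zn4) X.d14.2 X.d24.2 X.d34.2 (dself X.zn4)
  exact E_le (dz (X.comm_z h hh).symm) (swap_Dn X.zn1 (e1 hh)) (swap_Dn X.zn2 (e2 hh)) (swap_Dn X.zn3 (e3 hh))
    (swap_Dn X.zn4 (e4 hh))

theorem comm : ∀ g ∈ E z n1 n2 n3 n4, ∀ h ∈ E z n1 n2 n3 n4, ∃ m : ℤ, g * h * g⁻¹ * h⁻¹ = z ^ m := by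
  intro g hg h hh
  obtain ⟨h1, m, hm⟩ := X.le_Dn hg hh
  have c1 : Commute h z := h1
  exact ⟨m, by rw [hm, (c1.zpow_right m).eq, mul_inv_cancel_right]⟩

theorem normalizes {K : Subgroup G} (hK : K ≤ E z n1 n2 n3 n4) (hz : z ∈ K) {x : G} (hx : x ∈ E z n1 n2 n3 n4) :
    zpowers x ≤ normalizer (K : Set G) := by
  have key : ∀ y ∈ E z n1 n2 n3 n4, ∀ k ∈ K, y * k * y⁻¹ ∈ K := by
    intro y hy k hk
    obtain ⟨-, m, hm⟩ := X.le_Dn hy (hK hk)
    rw [hm]
    exact mul_mem hk (zpow_mem hz m)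
  rw [zpowers_le, mem_normalizer_iff]
  intro k
  refine ⟨fun hk => key x hx k hk, fun hk => ?_⟩
  have h1 := key x⁻¹ (inv_mem hx) _ hk
  simpa [mul_assoc] using h1

theorem pgroup : IsPGroup 5 ↥(E z n1 n2 n3 n4) := by
  have hft : Fact (Nat.Prime 5) := ⟨Nat.prime_five⟩
  have hx : ∀ {x : G}, x ^ 5 = 1 → IsPGroup 5 ↥(zpowers x) := by
    intro x hx
    rintro ⟨y, hy⟩
    obtain ⟨m, rfl⟩ := mem_zpowers_iff.1 hy
    refine ⟨1, Subtype.ext ?_⟩
    show (x ^ m) ^ (5 ^ 1) = 1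
    rw [pow_one, ← zpow_natCast, ← zpow_mul, mul_comm, zpow_mul, zpow_natCast, hx, one_zpow]
  have z0 : z ∈ zpowers z := mem_zpowers z
  have a0 := hx X.z5
  have a1 := a0.to_sup_of_normal_left' (hx X.p1) (X.normalizes (zpowers_le.2 m0) z0 m1)
  have a2 := a1.to_sup_of_normal_left' (hx X.p2) (X.normalizes (sup_le (zpowers_le.2 m0) (zpowers_le.2 m1))
    (mem_sup_left z0) m2)
  have a3 := a2.to_sup_of_normal_left' (hx X.p3) (X.normalizes (sup_le (sup_le (zpowers_le.2 m0) (zpowers_le.2 m1))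
    (zpowers_le.2 m2)) (mem_sup_left (mem_sup_left z0)) m3)
  exact a3.to_sup_of_normal_left' (hx X.p4) (X.normalizes (sup_le (sup_le (sup_le (zpowers_le.2 m0) (zpowers_le.2 m1))
    (zpowers_le.2 m2)) (zpowers_le.2 m3)) (mem_sup_left (mem_sup_left (mem_sup_left z0))) m4)

theorem zk_ne {k : ℕ} (hk : 1 ≤ k) (hk5 : k < 5) : z ^ k ≠ 1 := by
  have hft : Fact (Nat.Prime 5) := ⟨Nat.prime_five⟩
  intro h
  have h1 := orderOf_dvd_of_pow_eq_one h
  rw [orderOf_eq_prime X.z5 X.z1] at h1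
  have := Nat.le_of_dvd (by omega) h1
  omega

theorem ne14 : n1 * n4 ≠ n4 * n1 := by
  intro h
  have h1 := X.n14
  rw [h, mul_assoc] at h1
  exact X.zk_ne (k := 2) (by norm_num) (by norm_num) (mul_eq_right.1 h1.symm)

theorem ne23 : n2 * n3 ≠ n3 * n2 := by
  intro h
  have h1 := X.n23
  rw [h, mul_assoc] at h1
  exact X.zk_ne (k := 3) (by norm_num) (by norm_num) (mul_eq_right.1 h1.symm)

/-- `n2 * n1⁻¹` commutes with `n4` -/
theorem c214 : (n2 * n1⁻¹) * n4 = n4 * (n2 * n1⁻¹) := by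
  have c1 : Commute z n1 := X.zn1
  have c2 : Commute z n2 := X.zn2
  have c4 : Commute z n4 := X.zn4
  have h1 : n1⁻¹ * n4 = (z ^ 2)⁻¹ * n4 * n1⁻¹ := by
    have h2 := X.n14
    calc n1⁻¹ * n4 = n1⁻¹ * ((z ^ 2)⁻¹ * (z ^ 2 * n4 * n1)) * n1⁻¹ := by group
      _ = n1⁻¹ * ((z ^ 2)⁻¹ * (n1 * n4)) * n1⁻¹ := by rw [h2]
      _ = (n1⁻¹ * (z ^ 2)⁻¹ * n1) * n4 * n1⁻¹ := by group
      _ = (z ^ 2)⁻¹ * n4 * n1⁻¹ := by
        rw [((c1.pow_left 2).inv_left.inv_right).eq.symm, inv_mul_cancel_right]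
  calc (n2 * n1⁻¹) * n4 = n2 * (n1⁻¹ * n4) := by group
    _ = n2 * (z ^ 2)⁻¹ * n4 * n1⁻¹ := by rw [h1]; group
    _ = (z ^ 2)⁻¹ * (n2 * n4) * n1⁻¹ := by rw [← ((c2.pow_left 2).inv_left).eq]; group
    _ = n4 * (n2 * n1⁻¹) := by rw [X.n24]; group

/-- `n2 * n1⁻¹` does not commute with `n3` -/
theorem ne213 : (n2 * n1⁻¹) * n3 ≠ n3 * (n2 * n1⁻¹) := by
  intro h
  apply X.ne23
  have c : Commute n1 n3 := X.n13
  calc n2 * n3 = (n2 * n1⁻¹) * (n1 * n3) := by group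
    _ = ((n2 * n1⁻¹) * n3) * n1 := by rw [X.n13]; group
    _ = n3 * n2 := by rw [h]; group

theorem center_index [Finite G] :
    5 ^ 3 ∣ (E z n1 n2 n3 n4 ⊓ centralizer (E z n1 n2 n3 n4 : Set G)).relIndex (E z n1 n2 n3 n4) := by
  set F := E z n1 n2 n3 n4 with hF
  have hP : IsPGroup 5 F := X.pgroup
  set W := F ⊓ centralizer (F : Set G) with hW
  set A := F ⊓ centralizer ({n4} : Set G) with hA
  set B := A ⊓ centralizer ({n3} : Set G) with hB
  set C := B ⊓ centralizer ({n2} : Set G) with hC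
  have hWC : W ≤ C := by
    intro x hx
    have h1 : ∀ y ∈ F, x * y = y * x := fun y hy => (mem_centralizer_iff.1 hx.2 y hy).symm
    exact ⟨⟨⟨hx.1, mem_centralizer_singleton_iff.2 (h1 _ m4)⟩, mem_centralizer_singleton_iff.2 (h1 _ m3)⟩,
      mem_centralizer_singleton_iff.2 (h1 _ m2)⟩
  have hAF : A ≤ F := inf_le_left
  have hBA : B ≤ A := inf_le_left
  have hCB : C ≤ B := inf_le_left
  have i1 : 5 ∣ A.relIndex F := dvd_of_lt Nat.prime_five hP le_rfl m1
    (fun h => X.ne14 (mem_centralizer_singleton_iff.1 h.2))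
  have i2 : 5 ∣ B.relIndex A := dvd_of_lt Nat.prime_five hP hAF (x := n2 * n1⁻¹)
    ⟨F.mul_mem m2 (F.inv_mem m1), mem_centralizer_singleton_iff.2 X.c214⟩
    (fun h => X.ne213 (mem_centralizer_singleton_iff.1 h.2))
  have i3 : 5 ∣ C.relIndex B := dvd_of_lt Nat.prime_five hP (hBA.trans hAF) (x := n3)
    ⟨⟨m3, mem_centralizer_singleton_iff.2 X.n34⟩, mem_centralizer_singleton_iff.2 rfl⟩
    (fun h => X.ne23 (mem_centralizer_singleton_iff.1 h.2).symm)
  have h1 : W.relIndex F = W.relIndex C * (C.relIndex B * (B.relIndex A * A.relIndex F)) := by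
    rw [relIndex_mul_relIndex _ _ _ hBA hAF, relIndex_mul_relIndex _ _ _ hCB (hBA.trans hAF),
      relIndex_mul_relIndex _ _ _ hWC (hCB.trans (hBA.trans hAF))]
  rw [h1]
  refine Dvd.dvd.mul_left ?_ _
  rw [show 5 ^ 3 = 5 * (5 * 5) by norm_num]
  exact mul_dvd_mul i3 (mul_dvd_mul i2 i1)

/-- **The input of `no_extra`.** -/
theorem spec [Finite G] {D : Subgroup G} (hD : D ≤ E z n1 n2 n3 n4) (hz : z ∉ D) :
    5 ^ 3 ∣ D.relIndex (E z n1 n2 n3 n4) := by
  have hft : Fact (Nat.Prime 5) := ⟨Nat.prime_five⟩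
  exact dvd_relIndex Nat.prime_five X.pgroup (orderOf_eq_prime X.z5 X.z1) m0 X.comm_z X.comm X.center_index hD hz

end

end X5

end Cfsg.Agent.H841.RM.Five
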